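import Mathlib
import Cfsg.Agent.Transfer.TausskyTwoGroup

/-!
# `k(B₀) = 5`, `p = 2`: the end, from `|P : P'| = 4`

`not_isConj_pow_five` : `x` of order `2 ^ m ≥ 8` generating a cyclic subgroup of index two of the Sylow subgroup `P`,
`|P : P'| = 4`; then `x` and `x ^ 5` are not conjugate.
`end_two` : `P ≅ D₈` or `Q₈` if `k(B₀) = 5` and `k₀(B₀) = 4 → |P : P'| = 4`.
-/

set_option autoImplicit false

open Cfsg

namespace Cfsg.Agent.H850.K5.Cyc

universe u

/-- The automorphism group of a finite cyclic `2`-group is a `2`-group. -/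
theorem mulAut_two {C : Type*} [Group C] [Finite C] (hC : IsPGroup 2 C) [IsCyclic C] :
    IsPGroup 2 (MulAut C) := by
  obtain ⟨n, hn⟩ := IsPGroup.iff_card.1 hC
  rcases Nat.eq_zero_or_pos n with h0 | hpos
  · subst h0
    have : Subsingleton C := (Nat.card_eq_one_iff_unique.1 (by simpa using hn)).1
    have : Subsingleton (MulAut C) := ⟨fun a b => by ext x; exact Subsingleton.elim _ _⟩
    exact IsPGroup.of_subsingleton _ _
  · have e := IsCyclic.mulAutMulEquiv C
    rw [hn] at e
    have : Nat.card (MulAut C) = 2 ^ (n - 1) := by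
      rw [Nat.card_congr e.toEquiv, Nat.card_eq_fintype_card, ZMod.card_units_eq_totient,
        Nat.totient_prime_pow Nat.prime_two hpos]
      simp
    exact IsPGroup.of_card this

variable {G : Type u} [Group G] [Finite G]

/-- If `P` normalizes the cyclic `2`-group `⟨x⟩` then the conjugates of `x` in `⟨x⟩` are conjugate under `P`. -/
theorem exists_mem_conj (P : Sylow 2 G) {x : G} (hxP : x ∈ P)
    (hnorm : ∀ u ∈ P, u * x * u⁻¹ ∈ Subgroup.zpowers x) {g : G}
    (hg : g * x * g⁻¹ ∈ Subgroup.zpowers x) : ∃ u ∈ P, g * x * g⁻¹ = u * x * u⁻¹ := by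
  classical
  set C : Subgroup G := Subgroup.zpowers x with hC
  have hCP : C ≤ P := by rw [hC, Subgroup.zpowers_le]; exact hxP
  have hC2 : IsPGroup 2 C := P.isPGroup'.to_le hCP
  set N : Subgroup G := Subgroup.normalizer (C : Set G) with hN
  have hmemN : ∀ h : G, h * x * h⁻¹ ∈ C → h ∈ N := by
    intro h hh
    -- `h C h⁻¹ ≤ C`
    have h1 : C.map (MulAut.conj h).toMonoidHom ≤ C := by
      rw [Subgroup.map_le_iff_le_comap, hC, Subgroup.zpowers_le]
      exact hh
    have h2 : C.map (MulAut.conj h).toMonoidHom = C := by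
      apply Subgroup.eq_of_le_of_card_ge h1
      rw [Subgroup.card_map_of_injective (MulAut.conj h).injective]
    rw [hN, Subgroup.mem_normalizer_iff]
    intro y
    constructor
    · intro hy
      rw [← h2]
      exact ⟨y, hy, rfl⟩
    · intro hy
      have hy' : h * y * h⁻¹ ∈ C.map (MulAut.conj h).toMonoidHom := by
        have : h * y * h⁻¹ ∈ C := hy
        rw [h2]; exact this
      obtain ⟨z, hz, hzy⟩ := hy'
      have : z = y := by
        have h3 : h * z * h⁻¹ = h * y * h⁻¹ := hzy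
        simpa using h3
      exact this ▸ hz
  have hPN : (P : Subgroup G) ≤ N := fun u hu => hmemN u (hnorm u hu)
  have hgN : g ∈ N := hmemN g hg
  -- the centralizer has index a power of two in `N`
  set Z : Subgroup G := Subgroup.centralizer ({x} : Set G) with hZ
  have hZN : Z ≤ N := by
    intro z hz
    apply hmemN
    rw [hZ, Subgroup.mem_centralizer_singleton_iff] at hz
    rw [hz, mul_assoc, mul_inv_cancel, mul_one]
    exact Subgroup.mem_zpowers x
  let φ : N →* MulAut C := Subgroup.normalizerMonoidHom C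
  have hker : φ.ker = Z.subgroupOf N := by
    ext n
    rw [MonoidHom.mem_ker, Subgroup.mem_subgroupOf, hZ, Subgroup.mem_centralizer_singleton_iff]
    constructor
    · intro h
      have h1 := congrArg (fun f : MulAut C => ((f ⟨x, Subgroup.mem_zpowers x⟩ : C) : G)) h
      have h2 : (n : G) * x * (n : G)⁻¹ = x := h1
      rw [mul_inv_eq_iff_eq_mul] at h2
      exact h2
    · intro h
      ext c
      obtain ⟨k, hk⟩ := c.2
      have h2 : (n : G) * x * (n : G)⁻¹ = x := by rw [h, mul_assoc, mul_inv_cancel, mul_one]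
      have h3 : (n : G) * (c : G) * (n : G)⁻¹ = c := by
        rw [← hk]
        change (n : G) * x ^ k * (n : G)⁻¹ = x ^ k
        rw [← conj_zpow, h2]
      exact h3
  have hidx : ∃ k, (Z.subgroupOf N).index = 2 ^ k := by
    rw [← hker, Subgroup.index_ker]
    obtain ⟨k, hk⟩ := IsPGroup.iff_card.1 ((mulAut_two hC2).to_subgroup φ.range)
    exact ⟨k, hk⟩
  have hZnorm : (Z.subgroupOf N).Normal := by rw [← hker]; exact MonoidHom.normal_ker φ
  -- `P` has odd index
  have hodd : ¬ 2 ∣ ((P : Subgroup G).subgroupOf N).index := by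
    have h1 : ((P : Subgroup G).subgroupOf N).index ∣ (P : Subgroup G).index := by
      exact Subgroup.relIndex_dvd_index_of_le hPN
    intro h
    exact P.not_dvd_index' (Subgroup.index_ne_zero_of_finite) (h.trans h1)
  have htop : (P : Subgroup G).subgroupOf N ⊔ Z.subgroupOf N = ⊤ := by
    rw [← Subgroup.index_eq_one]
    obtain ⟨k, hk⟩ := hidx
    have h1 : ((P : Subgroup G).subgroupOf N ⊔ Z.subgroupOf N).index ∣ 2 ^ k := by
      rw [← hk]; exact Subgroup.index_dvd_of_le le_sup_right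
    have h2 : ((P : Subgroup G).subgroupOf N ⊔ Z.subgroupOf N).index ∣
        ((P : Subgroup G).subgroupOf N).index := Subgroup.index_dvd_of_le le_sup_left
    obtain ⟨j, -, hj⟩ := (Nat.dvd_prime_pow Nat.prime_two).1 h1
    rcases Nat.eq_zero_or_pos j with h0 | h0
    · rw [hj, h0, pow_zero]
    · exfalso
      apply hodd
      refine (dvd_trans ?_ h2)
      rw [hj]
      exact dvd_pow_self 2 (by omega)
  have hg' : (⟨g, hgN⟩ : N) ∈ (P : Subgroup G).subgroupOf N ⊔ Z.subgroupOf N := by
    rw [htop]; exact Subgroup.mem_top _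
  rw [Subgroup.mem_sup_of_normal_right] at hg'
  obtain ⟨u, hu, z, hz, huz⟩ := hg'
  refine ⟨(u : G), hu, ?_⟩
  have h1 : g = (u : G) * (z : G) := by
    have := congrArg (fun t : N => (t : G)) huz
    exact this.symm
  have h2 : (z : G) * x = x * (z : G) := by
    have : (z : G) ∈ Z := hz
    rw [hZ, Subgroup.mem_centralizer_singleton_iff] at this
    exact this
  rw [h1, mul_inv_rev, mul_assoc (u : G), h2]
  group

/-- The action on a cyclic subgroup of index two of a `2`-group with `|P : P'| = 4`. -/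
theorem conj_eq_pow {X : Type u} [Group X] [Finite X] {n : ℕ} (hn : 4 ≤ n) (hX : Nat.card X = 2 ^ n)
    (hab : (commutator X).index = 4) {x : X} (hx : (Subgroup.zpowers x).index = 2) (u : X) :
    u * x * u⁻¹ = x ∨ ∃ a : ℕ, a % 4 = 3 ∧ u * x * u⁻¹ = x ^ a := by
  classical
  set C : Subgroup X := Subgroup.zpowers x with hC
  have hCn : C.Normal := Subgroup.normal_of_index_eq_two hx
  by_cases hu : u ∈ C
  · left
    obtain ⟨k, rfl⟩ := hu
    change x ^ k * x * (x ^ k)⁻¹ = x
    group
  right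
  have hordx : orderOf x = 2 ^ (n - 1) := by
    have h1 := Subgroup.card_mul_index C
    rw [hx, hX, hC, Nat.card_zpowers] at h1
    have h2 : 2 ^ n = 2 ^ (n - 1) * 2 := by rw [← pow_succ]; congr 1; omega
    rw [h2] at h1
    exact Nat.eq_of_mul_eq_mul_right (by norm_num) h1
  have hmem : u * x * u⁻¹ ∈ C := hCn.conj_mem x (Subgroup.mem_zpowers x) u
  obtain ⟨a, ha⟩ : ∃ a : ℕ, x ^ a = u * x * u⁻¹ := by
    have : u * x * u⁻¹ ∈ Submonoid.powers x := by
      rw [mem_powers_iff_mem_zpowers]; exact hmem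
    exact this
  refine ⟨a, ?_, ha.symm⟩
  have hmul : ∀ g : X, g ∉ C → u⁻¹ * g ∈ C := by
    intro g hg
    rw [Subgroup.mul_mem_iff_of_index_two hx, inv_mem_iff]
    exact iff_of_false hu hg
  -- `a` is odd
  have hodd : a % 2 = 1 := by
    by_contra h
    have h2 : 2 ∣ a := by omega
    obtain ⟨b, rfl⟩ := h2
    have h4 : (u * x * u⁻¹) ^ (2 ^ (n - 2)) = 1 := by
      rw [← ha, ← pow_mul, ← orderOf_dvd_iff_pow_eq_one, hordx]
      refine ⟨b, ?_⟩
      have : 2 ^ (n - 1) = 2 ^ (n - 2) * 2 := by rw [← pow_succ]; congr 1; omega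
      rw [this]; ring
    rw [conj_pow, mul_inv_eq_one, mul_eq_left] at h4
    have h5 := orderOf_dvd_of_pow_eq_one h4
    rw [hordx, Nat.pow_dvd_pow_iff_le_right (by norm_num)] at h5
    omega
  by_contra h3
  have h1 : a % 4 = 1 := by omega
  -- then `P' ≤ ⟨x ^ 4⟩`
  set D : Subgroup X := Subgroup.zpowers (x ^ 4) with hD
  have hDn : D.Normal := by
    refine ⟨fun d hd g => ?_⟩
    obtain ⟨k, rfl⟩ := hd
    have h5 : g * x * g⁻¹ ∈ C := hCn.conj_mem x (Subgroup.mem_zpowers x) g
    obtain ⟨j, hj⟩ := h5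
    have h6 : x ^ j = g * x * g⁻¹ := hj
    refine ⟨j * k, ?_⟩
    change (x ^ 4) ^ (j * k) = g * (x ^ 4) ^ k * g⁻¹
    rw [← conj_zpow, ← conj_pow, ← h6]
    have : ((x ^ j) ^ 4) = (x ^ 4) ^ j := by
      rw [← zpow_natCast (x ^ j) 4, ← zpow_mul, mul_comm, zpow_mul, zpow_natCast]
    rw [this, ← zpow_mul]
  have hDC : D ≤ C := by
    rw [hD, Subgroup.zpowers_le]; exact Subgroup.pow_mem _ (Subgroup.mem_zpowers x) 4
  have hDcard : Nat.card D = 2 ^ (n - 3) := by
    rw [hD, Nat.card_zpowers, orderOf_pow, hordx]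
    have h5 : Nat.gcd (2 ^ (n - 1)) 4 = 4 := by
      apply Nat.gcd_eq_right
      exact ⟨2 ^ (n - 3), by rw [show (4 : ℕ) = 2 ^ 2 by norm_num, ← pow_add]; congr 1; omega⟩
    rw [h5]
    apply Nat.div_eq_of_eq_mul_left (by norm_num)
    rw [show (4 : ℕ) = 2 ^ 2 by norm_num, ← pow_add]; congr 1; omega
  have hDidx : D.index = 8 := by
    have h5 := Subgroup.card_mul_index D
    rw [hDcard, hX] at h5
    have h6 : 2 ^ n = 2 ^ (n - 3) * 8 := by
      rw [show (8 : ℕ) = 2 ^ 3 by norm_num, ← pow_add]; congr 1; omega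
    rw [h6] at h5
    exact Nat.eq_of_mul_eq_mul_left (by positivity) h5
  let π : X →* X ⧸ D := QuotientGroup.mk' D
  have hπ : ∀ d ∈ D, π d = 1 := fun d hd => (QuotientGroup.eq_one_iff d).2 hd
  have hx4 : π (u * x * u⁻¹) = π x := by
    rw [← ha]
    obtain ⟨b, hb⟩ : ∃ b, a = 4 * b + 1 := ⟨a / 4, by omega⟩
    rw [hb, pow_succ, pow_mul, map_mul, hπ _ (Subgroup.pow_mem _ (Subgroup.mem_zpowers _) b), one_mul]
  have hcx : ∀ g : X, π g * π x = π x * π g := by
    intro g
    by_cases hg : g ∈ C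
    · obtain ⟨k, rfl⟩ := hg
      change π (x ^ k) * π x = π x * π (x ^ k)
      rw [← map_mul, ← map_mul]
      congr 1
      exact (Commute.zpow_left (Commute.refl x) k).eq
    · obtain ⟨k, hk⟩ := hmul g hg
      have h7 : g = u * x ^ k := by
        have : x ^ k = u⁻¹ * g := hk
        rw [this]; group
      have h8 : g * x * g⁻¹ = u * x * u⁻¹ := by rw [h7]; group
      have h9 : π (g * x * g⁻¹) = π x := by rw [h8, hx4]
      rw [map_mul, map_mul, map_inv, mul_inv_eq_iff_eq_mul] at h9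
      exact h9
  have hcC : ∀ c ∈ C, ∀ g : X, π g * π c = π c * π g := by
    rintro c ⟨k, rfl⟩ g
    change π g * π (x ^ k) = π (x ^ k) * π g
    rw [map_zpow]
    exact ((show Commute (π g) (π x) from hcx g).zpow_right k).eq
  have hall : ∀ p q : X, π p * π q = π q * π p := by
    intro p q
    by_cases hp : p ∈ C
    · exact (hcC p hp q).symm
    by_cases hq : q ∈ C
    · exact hcC q hq p
    have h10 : q⁻¹ * p ∈ C := by
      rw [Subgroup.mul_mem_iff_of_index_two hx, inv_mem_iff]
      exact iff_of_false hq hp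
    have h11 := hcC _ h10 q
    have h12 : π p = π q * π (q⁻¹ * p) := by rw [← map_mul]; congr 1; group
    rw [h12, mul_assoc, ← h11]
  have hcomm : commutator X ≤ D := by
    rw [commutator_def, Subgroup.commutator_le]
    intro p _ q _
    rw [← QuotientGroup.eq_one_iff]
    change π _ = 1
    rw [commutatorElement_def, map_mul, map_mul, map_mul, map_inv, map_inv, hall p q]
    group
  have h13 := Subgroup.index_dvd_of_le hcomm
  rw [hDidx, hab] at h13
  omega

/-- `x` and `x ^ 5` are not conjugate. -/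
theorem not_isConj_pow_five (P : Sylow 2 G) {n : ℕ} (hn : 4 ≤ n) (hP : Nat.card (P : Subgroup G) = 2 ^ n)
    (hab : (commutator (P : Subgroup G)).index = 4) {x : (P : Subgroup G)}
    (hx : (Subgroup.zpowers x).index = 2) : ¬ IsConj (x : G) ((x : G) ^ 5) := by
  intro h
  obtain ⟨g, hg⟩ := isConj_iff.1 h
  have hCn : (Subgroup.zpowers x).Normal := Subgroup.normal_of_index_eq_two hx
  have hordx : orderOf x = 2 ^ (n - 1) := by
    have h1 := Subgroup.card_mul_index (Subgroup.zpowers x)
    rw [hx, hP, Nat.card_zpowers] at h1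
    have h2 : 2 ^ n = 2 ^ (n - 1) * 2 := by rw [← pow_succ]; congr 1; omega
    rw [h2] at h1
    exact Nat.eq_of_mul_eq_mul_right (by norm_num) h1
  have h8 : (8 : ℕ) ∣ orderOf x := by
    rw [hordx, show (8 : ℕ) = 2 ^ 3 by norm_num]
    exact pow_dvd_pow 2 (by omega)
  obtain ⟨u, hu, hgu⟩ := exists_mem_conj P (x := (x : G)) x.2 (by
    intro u hu
    obtain ⟨k, hk⟩ := hCn.conj_mem x (Subgroup.mem_zpowers x) ⟨u, hu⟩
    refine ⟨k, ?_⟩
    have := congrArg (fun t : (P : Subgroup G) => (t : G)) hk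
    simpa using this) (g := g) (by rw [hg]; exact Subgroup.npow_mem_zpowers _ 5)
  rw [hg] at hgu
  have key : x ^ 5 = (⟨u, hu⟩ : (P : Subgroup G)) * x * (⟨u, hu⟩ : (P : Subgroup G))⁻¹ := by
    apply Subtype.ext
    simpa using hgu
  rcases conj_eq_pow hn hP hab hx ⟨u, hu⟩ with h1 | ⟨a, ha, h1⟩
  · rw [h1] at key
    have h2 : x ^ 4 = 1 := by
      have : x ^ 4 * x = 1 * x := by rw [← pow_succ, one_mul]; exact key
      exact mul_right_cancel this
    have := h8.trans (orderOf_dvd_of_pow_eq_one h2)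
    omega
  · rw [h1] at key
    have h2 : 5 ≡ a [MOD orderOf x] := pow_eq_pow_iff_modEq.1 key
    have h3 : 5 ≡ a [MOD 4] := h2.of_dvd ((by norm_num : (4 : ℕ) ∣ 8).trans h8)
    have h4 : 5 % 4 = a % 4 := h3
    omega

end Cfsg.Agent.H850.K5.Cyc
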